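import Cfsg.Agent.SM.A2

/-! The case analysis. -/

set_option autoImplicit false
set_option linter.unusedSectionVars false

namespace SM
open Subgroup H9 H7 H4
open scoped commutatorElement

variable {G : Type*} [Group G] [Finite G]

namespace Pr
variable {D : Set G} {E : G → Subgroup G} {z w : G} (p : Pr D E z w)
include p

theorem lg (h : ¬ C2 E z w) (n : ¬ El E z w) : Pz E z w := by
  have h' := mt p.symm.c2s h
  obtain ⟨a, ha, ca, a2⟩ : ∃ a ∈ E z, Commute a w ∧ a * a = z := by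
    by_contra k
    exact n fun a ha ca => (p.ez.sq a ha).resolve_right fun e => k ⟨a, ha, ca, e⟩
  have hz : z ∈ Sq w := a2 ▸ sq_mem ca
  have CF : ∀ f ∈ E w, (∀ i ∈ E z, i ∈ E w → Commute f i) → ⁅z, f⁆ = 1 := fun f hf k => by
    obtain ⟨c, e⟩ := p.sqz ha ca a2 hf k
    obtain ⟨y2, yz⟩ := p.symm.Jsq (p.symm.al1 h')
      (p.symm.mJ (p.symm.cl ca hf) fun b hb => c b hb.1 (p.symm.CA h' hb))
    rw [y2, mul_one] at e
    exact p.symm.nj (e ▸ p.cr yz ha)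
  obtain ⟨i1, h1, j1, n1⟩ : ∃ i ∈ E z, i ∈ E w ∧ i ≠ 1 := by
    by_contra k
    push Not at k
    exact p.symm.wE (p.cc p.wD z fun f hf => (c1.1 (CF f hf fun i hi hj => by
      rw [k i hi hj]; exact Commute.one_right _)).symm)
  obtain ⟨i2, h2, j2, n2, n12⟩ : ∃ i ∈ E z, i ∈ E w ∧ i ≠ 1 ∧ i ≠ i1 := by
    by_contra k
    push Not at k
    obtain ⟨f, hf, l, c⟩ := p.symm.I1 h' j1 h1 n1
    have := CF f hf fun i hi hj => by
      by_cases e : i = 1
      · rw [e]; exact Commute.one_right _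
      · rw [k i hi hj e]; exact c
    exact p.wE ((mul_mem_cancel_right h1).1 (l.symm.trans this ▸ one_mem _))
  obtain ⟨e1, g1, k1, -⟩ := p.I1 h h1 j1 n1
  obtain ⟨e2, g2, k2, -⟩ := p.I1 h h2 j2 n2
  have nc : ¬ Commute e1 i2 := fun c => (p.I2 h g1 k1 h1 j1 h2 j2 c).elim n2 n12
  have k3 : ⁅w, e1 * e2⁆ = z * (i1 * i2) := by
    rw [cm_mul, k1, k2, ← conj_mul, cj_of (p.cz g1), p.cj g1 h2 nc, ← mul_assoc z z, p.z2, one_mul,
      mul_assoc]
  have n3 : i1 * i2 ≠ 1 := fun e => n12 (by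
    rw [← inv_eq_of_mul_eq_one_right e, inv_eq_of_mul_eq_one_right (p.Isq h1 j1)])
  obtain ⟨s1, a1, b1, r1⟩ := p.sw h hz g1 k1 h1 j1 n1
  obtain ⟨s2, a2, b2, r2⟩ := p.sw h hz g2 k2 h2 j2 n2
  obtain ⟨s3, a3, b3, r3⟩ := p.sw h hz (mul_mem g1 g2) k3 (mul_mem h1 h2) (mul_mem j1 j2) n3
  intro x hx cx
  obtain ⟨b, rfl⟩ : ∃ b, x = s1 * b * s1⁻¹ := ⟨s1⁻¹ * x * s1, by group⟩
  have hb : b ∈ E w := (p.cjE p.wD s1).1 (b1 ▸ hx)
  have cb : Commute b z := by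
    rw [← a1] at cx
    simpa [mul_assoc] using cj_cm (g := s1⁻¹) cx
  have q1 := r1 b hb cb
  have q2 := r2 b hb cb
  have q3 := r3 b hb cb
  have ct : Commute (s3 * s2⁻¹) w := of_cj (by
    rw [← a2]; simp only [mul_inv_rev, inv_inv, mul_assoc, inv_mul_cancel_left]
    rw [← mul_assoc, a3, ← mul_assoc, a2])
  have q4 := cm_mem (a2 ▸ cj_cm cb : Commute (s2 * b * s2⁻¹) w).inv_left ct
  have m2 := p.cr cb g2
  rw [mul_cm] at q3
  have key : ∀ ζ, ζ ∈ Sq w → Commute ζ (s2 * b * s2⁻¹) → e1 * ⁅e2, b⁆ * e1⁻¹ = ζ * ⁅e2, b⁆ →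
      s1 * b * s1⁻¹ ∈ Sq w := fun ζ hζ c e => by
    rw [e] at q3
    have : s1 * b * s1⁻¹ = ⁅e2, b⁆⁻¹ * (s2 * b * s2⁻¹) * ((s2 * b * s2⁻¹)⁻¹ * ζ⁻¹ *
        (s2 * b * s2⁻¹)⁻¹⁻¹) * ⁅(s2 * b * s2⁻¹)⁻¹, s3 * s2⁻¹⁆ *
        ((ζ * ⁅e2, b⁆ * ⁅e1, b⁆)⁻¹ * (s3 * b * s3⁻¹))⁻¹ * (⁅e1, b⁆⁻¹ * (s1 * b * s1⁻¹)) := by
      generalize ⁅e2, b⁆ = u
      generalize ⁅e1, b⁆ = v
      simp only [commutatorElement_def]; group
    rw [this, cj_of c.symm.inv_left.inv_right]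
    exact mul_mem (mul_mem (mul_mem (mul_mem q2 (inv_mem hζ)) q4) (inv_mem q3)) q1
  rcases p.cj2 g1 m2 with e | e
  · exact key 1 (one_mem _) (Commute.one_left _) (by rw [e, one_mul])
  · exact key z hz (p.cz (b2 ▸ (p.cjE p.wD s2).2 hb)).symm e

theorem exA (h : ¬ C2 E z w) {e : G} (he : e ∈ E z) (n : ¬ Commute e w) :
    ∃ a ∈ E z, Commute a w ∧ ¬ Commute a e := by
  by_contra k
  push Not at k
  exact n (p.CA h (p.mC he fun x hx => k _ (p.jE hx) (p.jA (p.al1 h x hx))))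
theorem zi1 {e i : G} (k : ⁅w, e⁆ = z * i) (hj : i ∈ E w) : ¬ Commute e w := fun c =>
  p.symm.wE ((mul_mem_cancel_right hj).1 (k.symm.trans (c1.2 c.symm) ▸ one_mem _))

theorem ib (h : ¬ C2 E z w) (el : El E z w) {i1 : G} (h1 : i1 ∈ E z) (j1 : i1 ∈ E w) :
    i1 = 1 := by
  by_contra n1
  obtain ⟨e1, g1, k1, c1'⟩ := p.I1 h h1 j1 n1
  have bI : ∀ {b i}, b ∈ E w → Commute b z → i ∈ E z → i ∈ E w → Commute b (z * i) :=
    fun hb cb hi hj => cb.mul_right (p.symm.Ic hj hi hb cb).symm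
  by_cases k : ∃ i ∈ E z, i ∈ E w ∧ i ≠ 1 ∧ i ≠ i1
  · obtain ⟨i2, h2, j2, n2, n12⟩ := k
    obtain ⟨e2, g2, k2, c2⟩ := p.I1 h h2 j2 n2
    have nc : ¬ Commute e1 i2 := fun c => (p.I2 h g1 k1 h1 j1 h2 j2 c).elim n2 n12
    have nc' : ¬ Commute e2 i1 := fun c => (p.I2 h g2 k2 h2 j2 h1 j1 c).elim n1 n12.symm
    have AB : ∀ a ∈ E z, Commute a w → ∀ b ∈ E w, Commute b z → Commute b a := by
      intro a ha ca b hb cb
      have y : ∀ {e i}, e ∈ E z → ⁅w, e⁆ = z * i → i ∈ E z → i ∈ E w → ⁅b, a⁆ = 1 ∨ ⁅b, a⁆ = i :=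
        fun he k hi hj => p.I2 h he k hi hj (p.cl cb ha) (p.symm.cr ca hb)
          ((p.adj cb ha he).2 (p.ab el ha ca (p.cl cb.inv_left he) (by
            rw [← commutatorElement_inv]
            exact (p.ψA he (p.symm.cz hb).inv_left (k ▸ (bI hb cb hi hj).inv_left)).inv_left))).symm
      exact c1.1 ((y g1 k1 h1 j1).elim id fun e => (y g2 k2 h2 j2).elim id fun e' =>
        absurd (e'.symm.trans e) n12)
    obtain ⟨e, he, d1, d2, n⟩ : ∃ e ∈ E z, Commute i1 e ∧ Commute i2 e ∧ ¬ Commute e w := by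
      by_contra k
      push Not at k
      have t1 := p.ez.card_le_two_mul h1 (A := E z) le_rfl
      have t2 := p.ez.card_le_two_mul h2 (A := E z ⊓ centralizer {i1}) inf_le_left
      have t3 := p.ez.card_le_two_mul g1 (A := E z ⊓ centralizer {i1} ⊓ centralizer {i2})
        (inf_le_left.trans inf_le_left)
      have t4 := p.ez.card_le_two_mul g2
        (A := E z ⊓ centralizer {i1} ⊓ centralizer {i2} ⊓ centralizer {e1})
        (inf_le_left.trans (inf_le_left.trans inf_le_left))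
      have t5 := le2 (H := E z ⊓ centralizer {i1} ⊓ centralizer {i2} ⊓ centralizer {e1} ⊓
          centralizer {e2}) (i := z) fun x ⟨⟨⟨⟨hx, x1⟩, x2⟩, x3⟩, x4⟩ => p.ctr hx fun e he => by
        have cx := k x hx (cmc.1 x1).symm (cmc.1 x2).symm
        have u : ∀ e ∈ E z, Commute i1 e → Commute e x := fun e he d => by
          by_cases d' : Commute i2 e
          · exact p.ab el he (k e he d d') hx cx
          · simpa using (p.ab el (mul_mem he g1) (k _ (mul_mem he g1) (d.mul_right c1'.symm)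
              (p.cmul he g1 h2 d' fun c => nc c.symm)) hx cx).mul_left (cmc.1 x3).symm.inv_left
        by_cases d : Commute i1 e
        · exact u e he d
        · simpa using (u _ (mul_mem he g2) (p.cmul he g2 h1 d fun c => nc' c.symm)).mul_left
            (cmc.1 x4).symm.inv_left
      have := p.big p.zD
      omega
    obtain ⟨a, ha, ca, na⟩ := p.exA h he n
    have t := p.cnt2 el he (fun b hb cb => AB _ (p.jE he) (p.jA (p.al1 h e he)) b hb cb)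
      (fun i hi hj => by
        have u : ∀ i ∈ E z, i ∈ E w → Commute e1 i → Commute i e := fun i hi hj c => by
          rcases p.I2 h g1 k1 h1 j1 hi hj c with r | r <;> rw [r]
          exacts [Commute.one_left _, d1]
        by_cases c : Commute e1 i
        · exact u i hi hj c
        · simpa using (u _ (mul_mem hi h2) (mul_mem hj j2) (p.cmul hi h2 g1 c nc)).mul_left
            d2.inv_left) ha ca na
    have t1 := (p.pr he (p.jA (p.al1 h e he)) n).le4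
    have t2 := two_mul_le (Y := E z ⊓ E w ⊓ Cen e1) inf_le_left (a := i2) ⟨h2, j2⟩
      fun c => nc (cmc.1 c.2).symm
    have t3 := ge2 (H := E z ⊓ E w ⊓ Cen e1) ⟨⟨h1, j1⟩, cmc.2 c1'.symm⟩ n1
    omega
  · push Not at k
    obtain ⟨a, ha, ca, na⟩ := p.exA h g1 (p.zi1 k1 j1)
    have t := p.cnt2 el g1 (fun b hb cb => k1 ▸ bI hb cb h1 j1) (fun i hi hj => by
      by_cases e : i = 1
      · rw [e]; exact Commute.one_left _
      · rw [k i hi hj e]; exact c1'.symm) ha ca na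
    obtain ⟨f, hf, l, -⟩ := p.symm.I1 (mt p.symm.c2s h) j1 h1 n1
    have t1 := p.II (g := f)
    rw [cj_of (p.symm.cz hf), p.symm.wj, l, ← mul_assoc, p.cm.eq, mul_assoc, ← k1, ← p.wj] at t1
    have : 0 < Nat.card (E z ⊓ E w : Subgroup G) := Nat.card_pos
    omega

theorem IIk {e0 : G} (h0 : e0 ∈ E z) (k0 : ⁅w, e0⁆ = z) :
    Nat.card (E (e0 * w * e0⁻¹) ⊓ E w : Subgroup G) = Nat.card (E z ⊓ E w : Subgroup G) := by
  obtain ⟨f, hf, l⟩ := p.c2s ⟨e0, h0, k0⟩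
  have t1 := p.II (g := f)
  rwa [cj_of (p.symm.cz hf), p.symm.wj, l, p.cm.eq, ← k0, ← p.wj, k0] at t1

theorem al2 : Al E z w := by
  by_contra n
  obtain ⟨e1, g1, k1⟩ : ∃ e ∈ E z, ⁅w, e⁆ * ⁅w, e⁆ = z := by
    by_contra k
    exact n fun e he => (p.ez.sq _ (p.jE he)).resolve_right fun r => k ⟨e, he, r⟩
  have h0 := p.jE g1
  have k0 : ⁅w, ⁅w, e1⁆⁆ = z := by rw [p.jj, k1, p.zi]
  have AC : ∀ a ∈ E z, Commute a w → a ∈ p.C := fun a ha c => ⟨ha, Or.inl (c1.2 c.symm)⟩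
  have I0 : ∀ i ∈ E z, i ∈ E w → i = 1 := fun i hi hj =>
    p.I0 h0 k0 hi hj (p.jC g1 (AC i hi (p.symm.cz hj))).symm
  have AB : ∀ a ∈ E z, Commute a w → ∀ b ∈ E w, Commute b z → Commute b a :=
    fun a ha ca b hb cb => c1.1 (I0 _ (p.cl cb ha) (p.symm.cr ca hb))
  have t1 := cnt0 (B := E w ⊓ Cen z) (K := E (⁅w, e1⁆ * w * ⁅w, e1⁆⁻¹) ⊓ E w)
    (Y := E z ⊓ centralizer {e | e ∈ E z ∧ ⁅w, e⁆ * ⁅w, e⁆ = 1}) (fun b => ⁅⁅w, e1⁆, b⁆)
    (fun b ⟨hb, cb⟩ => ⟨p.cr (cmc.1 cb) h0, fun e ⟨he, k⟩ => by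
      have cb := cmc.1 cb
      rw [← commutatorElement_inv]
      refine Commute.inv_right ((p.adj cb h0 he).2 (p.jC g1 (AC _ (p.cl cb.inv_left he) ?_))).symm
      rw [← commutatorElement_inv]
      exact (p.ψA he (p.symm.cz hb).inv_left
        (AB _ (p.jE he) (p.jA k) b hb cb).inv_left).inv_left⟩)
    fun b hb b' hb' e => p.Kmem h0 hb.1 hb'.1 (by rw [e, inv_mul_cancel]; exact one_mem _)
  rw [p.IIk h0 k0, (eq_bot_iff_forall (E z ⊓ E w)).2 fun i hi => I0 i hi.1 hi.2, card_bot,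
    ← p.AB] at t1
  have t2 := p.ez.card_le_two_mul g1
    (A := E z ⊓ centralizer {e | e ∈ E z ∧ ⁅w, e⁆ * ⁅w, e⁆ = 1}) inf_le_left
  have t3 := le2 (H := E z ⊓ centralizer {e | e ∈ E z ∧ ⁅w, e⁆ * ⁅w, e⁆ = 1} ⊓ centralizer {e1})
    (i := z) fun x ⟨⟨hx, x1⟩, x2⟩ => p.ctr hx fun e he => by
      rcases p.ez.sq _ (p.jE he) with k | k
      · exact x1 e ⟨he, k⟩
      have : Commute (e * e1) x := x1 _ ⟨mul_mem he g1, by
        have c := (p.jC g1 (p.jmC he)).eq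
        have c' := (p.cz (mul_mem (p.jE he) h0)).eq
        have : ⁅w, e⁆ * ⁅w, e1⁆ * (⁅w, e⁆ * ⁅w, e1⁆) = 1 := by
          rw [mul_assoc, ← mul_assoc ⁅w, e1⁆, c, mul_assoc, k1, ← mul_assoc, k, p.z2]
        rcases p.jmul he g1 with r | r <;> rw [r]
        · exact this
        · rw [mul_assoc, ← mul_assoc _ z, c', mul_assoc, this, mul_one, p.z2]⟩
      simpa using this.mul_left (cmc.1 x2).symm.inv_left
  have je : ∀ e e', ⁅w, e⁆ = ⁅w, e'⁆ → Commute (e⁻¹ * e') w := fun e e' k => of_cj (by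
    rw [mul_inv_rev, inv_inv, ← mul_assoc, mul_assoc e⁻¹, mul_assoc e⁻¹, p.wj, ← k, ← p.wj]; group)
  have t4 := cnt0 (B := E z) (K := E z ⊓ Cen w) (Y := p.C) (fun e => ⁅w, e⁆)
    (fun e he => p.jmC he) fun e he e' he' k =>
      mem_inf.2 ⟨mul_mem (inv_mem he) he', cmc.2 (je e e' k)⟩
  have t5 := cnt0 (B := p.C) (K := E z ⊓ Cen w) (Y := zpowers z) (fun e => ⁅w, e⁆)
    (fun e he => p.ez.mem_zpowers_iff.2 he.2)
    fun e he e' he' k => mem_inf.2 ⟨mul_mem (inv_mem he.1) he'.1, cmc.2 (je e e' k)⟩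
  rw [p.ez.card_zpowers] at t5
  have := p.big p.zD
  have t6 := Nat.mul_le_mul (show Nat.card (E z ⊓ Cen w : Subgroup G) ≤ 4 by omega)
    (show Nat.card p.C ≤ 8 by omega)
  omega

theorem CEA {x : G} (hx : x ∈ E z) (h : ∀ a ∈ E z, Commute a w → Commute x a) : Commute x w := by
  have c := p.mC hx fun e he => (h _ (p.jE he) (p.jA (p.al2 e he))).symm
  exact c.2.elim (fun k => (c1.1 k).symm) fun k =>
    (p.Jsq p.al2 (p.mJ0 hx k hx h (Commute.refl x))).2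
theorem ne0 {e0 : G} (k0 : ⁅w, e0⁆ = z) : ¬ Commute e0 w := fun c =>
  p.ez.ne (k0.symm.trans (c1.2 c.symm))
theorem exA' {e : G} (he : e ∈ E z) (n : ¬ Commute e w) :
    ∃ a ∈ E z, Commute a w ∧ ¬ Commute a e := by
  by_contra k
  push Not at k
  exact n (p.CEA he fun a ha c => (k a ha c).symm)

theorem el2 (h : C2 E z w) : El E z w := fun a ha ca => by
  refine (p.ez.sq a ha).resolve_right fun a2 => ?_
  obtain ⟨f0, h0, k0⟩ := p.c2s h
  have CF : ∀ f ∈ E w, (∀ i ∈ E z, i ∈ E w → Commute f i) → f ∈ p.symm.C := fun f hf k => by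
    obtain ⟨c, e⟩ := p.sqz ha ca a2 hf k
    have hy := p.symm.cl ca hf
    have m := p.cr (p.symm.CEA hy c) ha
    refine ⟨hf, (p.symm.ez.sq _ hy).imp (fun r => ?_) fun r => ?_⟩ <;> rw [r] at e
    · exact p.symm.nj (e ▸ mul_mem m (one_mem _))
    · rw [e, p.symm.IJ h0 k0 m ⟨f, hf, Or.inr ?_⟩, one_mul]
      rw [e, (p.symm.cz (p.symm.cl ca hy)).eq, ← mul_assoc, p.symm.z2, one_mul]
  refine p.symm.nC fun f hf => ?_
  by_cases k : ∀ i ∈ E z, i ∈ E w → Commute f i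
  · exact CF f hf k
  push Not at k
  obtain ⟨i, hi, hj, n⟩ := k
  have := CF _ (mul_mem hf h0) fun i' hi' hj' => by
    by_cases e : i' = 1
    · rw [e]; exact Commute.one_right _
    have n0 : ∀ {i}, i ∈ E z → i ∈ E w → i ≠ 1 → ¬ Commute f0 i := fun hi hj n c =>
      n (p.symm.I0 h0 k0 hj hi c.symm)
    have n1 : i ≠ 1 := fun e => n (e ▸ Commute.one_right _)
    have := p.symm.I0 h0 k0 (mul_mem hj hj') (mul_mem hi hi')
      (p.symm.cmul hj hj' h0 (n0 hi hj n1) (n0 hi' hj' e)).symm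
    rw [← inv_eq_of_mul_eq_one_right this]
    exact (p.symm.cmul hf h0 hj (fun c => n c.symm) fun c => n0 hi hj n1 c.symm).symm.inv_right
  exact (mul_mem_cancel_right (show f0 ∈ p.symm.C from ⟨h0, Or.inr k0⟩)).1 this

theorem jSq {e : G} (h : Pz E (e * w * e⁻¹) w) (he : e ∈ E z) : ⁅w, e⁆ ∈ Sq w := by
  have := h _ (p.es (p.cD p.wD e)).mem (p.wj e ▸ (Commute.refl w).mul_left (p.jA (p.al2 e he)))
  rwa [p.wj, mul_mem_cancel_left p.symm.zSq] at this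
theorem zj {e e' : G} (n : ¬ Commute e ⁅w, e'⁆) (he : e ∈ E z) (he' : e' ∈ E z)
    (a : ⁅w, e⁆ ∈ Sq w) (b : ⁅w, e'⁆ ∈ Sq w) (c : ⁅w, e * e'⁆ ∈ Sq w) : z ∈ Sq w := by
  rwa [cm_mul, p.cj he (p.jE he') n, mul_mem_cancel_left a, mul_mem_cancel_right b] at c
theorem exj {e : G} (he : e ∈ E z) (n : e ∉ p.C) : ∃ x ∈ E z, ¬ Commute x ⁅w, e⁆ := by
  by_contra k
  push Not at k
  exact n ⟨he, p.ctr (p.jE he) k⟩

theorem p2 (h : C2 E z w) : Pz E z w := by
  have el := p.el2 h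
  obtain ⟨e0, h0, k0⟩ := h
  obtain ⟨i, hi, hj, n1⟩ : ∃ i ∈ E z, i ∈ E w ∧ i ≠ 1 := by
    by_contra k
    push Not at k
    obtain ⟨a, ha, ca, na⟩ := p.exA' h0 (p.ne0 k0)
    have t := p.cnt2 el h0 (fun b _ cb => k0 ▸ cb) (fun i hi hj => by
      rw [k i hi hj]; exact Commute.one_left _) ha ca na
    have : 0 < Nat.card (E z ⊓ E w : Subgroup G) := Nat.card_pos
    have := p.IIk h0 k0
    omega
  have n0 : ¬ Commute i e0 := fun c => n1 (p.I0 h0 k0 hi hj c)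
  have Ii : ∀ x ∈ E z, x ∈ E w → x = 1 ∨ x = i := fun x hx hx' => by
    refine or_iff_not_imp_left.2 fun e => ?_
    have := p.I0 h0 k0 (mul_mem hi hx) (mul_mem hj hx') (p.cmul hi hx h0 (fun c => n0 c.symm)
      fun c => e (p.I0 h0 k0 hx hx' c.symm)).symm
    rw [← inv_eq_of_mul_eq_one_right this, inv_eq_of_mul_eq_one_right (p.Isq hi hj)]
  have JB : ∀ e ∈ E z, ∀ b ∈ E w, Commute b z → Commute b ⁅w, e⁆ := fun e he b hb cb => by
    refine c1.1 (p.IJ h0 k0 (p.symm.cr (p.jA (p.al2 e he)) hb) ?_)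
    have : ⁅b, ⁅w, e⁆⁆ = ⁅w, b * e * b⁻¹⁆ * ⁅w, e⁆⁻¹ := by
      rw [commutatorElement_def b, ← cj_of (p.symm.cz hb), ← conjugate_commutatorElement,
        cj_of (p.symm.cz hb)]
    exact this ▸ mul_mem ⟨_, p.nE cb he, Or.inl rfl⟩ (inv_mem ⟨e, he, Or.inl rfl⟩)
  have P : ∀ e ∈ E z, Commute i e → ¬ Commute e w → Pz E (e * w * e⁻¹) w := fun e he c n => by
    obtain ⟨a, ha, ca, na⟩ := p.exA' he n
    have t := p.cnt2 el he (JB e he) (fun x hx hx' => by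
      rcases Ii x hx hx' with r | r <;> rw [r]
      exacts [Commute.one_left _, c]) ha ca na
    have t1 := ge2 (H := E z ⊓ E w) ⟨hi, hj⟩ n1
    have q := p.pr he (p.jA (p.al2 e he)) n
    have h1 : ¬ C2 E (e * w * e⁻¹) w := fun k => by have := q.le_II k; omega
    refine q.lg h1 fun k => ?_
    rw [(eq_bot_iff_forall (E (e * w * e⁻¹) ⊓ E w)).2 fun x hx => q.ib h1 k hx.1 hx.2,
      card_bot] at t
    omega
  have jS : ∀ e ∈ E z, Commute i e → ⁅w, e⁆ ∈ Sq w := fun e he c => by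
    by_cases n : Commute e w
    · rw [c1.2 n.symm]; exact one_mem _
    · exact p.jSq (P e he c n) he
  obtain ⟨e, he, c, n⟩ : ∃ e ∈ E z, Commute i e ∧ ¬ Commute e w := by
    by_contra k
    push Not at k
    have := p.ez.card_le_eight hi (p.Isq hi hj) fun d hd c => el d hd (k d hd (Commute.symm c))
    have := p.big p.zD
    omega
  have iS : i ∈ Sq w := P e he c n i (cj_of c.symm ▸ (p.cjE p.wD e).2 hj) (p.symm.cz hj)
  have zS : z ∈ Sq w := by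
    obtain ⟨x, hx, k⟩ := p.exj he fun k => n0 (by
      simpa using c.inv_right.mul_right (p.Ic hi hj (mul_mem he h0)
        ((p.Ce0 k0 k).resolve_left n)))
    by_cases d : Commute i x
    · exact p.zj k hx he (jS x hx d) (jS e he c) (jS _ (mul_mem hx he) (d.mul_right c))
    · have d' := p.cmul hx h0 hi d n0
      exact p.zj (fun r => k (by
        simpa using r.mul_left (p.jC he ⟨h0, Or.inr k0⟩).symm.inv_left)) (mul_mem hx h0) he
        (jS _ (mul_mem hx h0) d') (jS e he c) (jS _ (mul_mem (mul_mem hx h0) he) (d'.mul_right c))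
  have JS : p.J ≤ Sq w := by
    have : ∀ x ∈ E z, ⁅w, x⁆ ∈ Sq w := fun x hx => by
      by_cases d : Commute i x
      · exact jS x hx d
      · have := jS _ (mul_mem hx h0) (p.cmul hx h0 hi d n0)
        rwa [cm_mul, k0, cj_of (p.cz hx), mul_mem_cancel_right zS] at this
    rintro _ ⟨x, hx, rfl | rfl⟩
    exacts [this x hx, mul_mem zS (this x hx)]
  intro a ha ca
  have u : ∀ a ∈ E z, Commute a w → Commute e0 a → a ∈ Sq w := fun a ha ca d =>
    JS (p.mJ0 h0 k0 ha (fun b hb cb => p.ab el ha ca hb cb) d.symm)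
  by_cases d : Commute e0 a
  · exact u a ha ca d
  · exact (mul_mem_cancel_right iS).1 (u _ (mul_mem ha hi) (ca.mul_left (p.symm.cz hj))
      (p.cmul ha hi h0 d fun c => n0 c.symm))

theorem pz : Pz E z w := by
  by_cases h : C2 E z w
  · exact p.p2 h
  by_cases el : El E z w
  swap
  · exact p.lg h el
  have I0 : ∀ i ∈ E z, i ∈ E w → i = 1 := fun i => p.ib h el
  have jS : ∀ e ∈ E z, ⁅w, e⁆ ∈ Sq w := fun e he => by
    by_cases n : Commute e w
    · rw [c1.2 n.symm]; exact one_mem _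
    obtain ⟨a, ha, ca, na⟩ := p.exA h he n
    have c := p.jA (p.al2 e he)
    have t := p.cnt2 el he (fun b hb cb => c1.1 (I0 _ (p.cl cb (p.jE he)) (p.symm.cr c hb)))
      (fun x hx hx' => by rw [I0 x hx hx']; exact Commute.one_left _) ha ca na
    have q := p.pr he c n
    refine p.jSq ?_ he
    by_cases h1 : C2 E (e * w * e⁻¹) w
    · exact q.p2 h1
    refine q.lg h1 fun k => ?_
    rw [(eq_bot_iff_forall (E (e * w * e⁻¹) ⊓ E w)).2 fun x hx => q.ib h1 k hx.1 hx.2,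
      card_bot] at t
    have : 0 < Nat.card (E z ⊓ E w : Subgroup G) := Nat.card_pos
    omega
  have zS : z ∈ Sq w := by
    obtain ⟨e, he, n⟩ : ∃ e ∈ E z, e ∉ p.C := by
      by_contra k
      push Not at k
      exact p.nC k
    obtain ⟨x, hx, k⟩ := p.exj he n
    exact p.zj k hx he (jS x hx) (jS e he) (jS _ (mul_mem hx he))
  intro a ha ca
  obtain ⟨x, hx, rfl | rfl⟩ := p.mJ ha fun c hc => p.ab el ha ca hc.1 (p.CA h hc)
  exacts [jS x hx, mul_mem zS (jS x hx)]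

end Pr

/-- the conjugate of `E` belonging to `d` -/
def Ed (E : Subgroup G) (z d : G) : Subgroup G := ⨅ g ∈ {g | g * z * g⁻¹ = d}, conjS g E
theorem Ed_eq {E : Subgroup G} {z : G} (hN : Cen z ≤ normalizer (E : Set G)) (g : G) :
    Ed E z (g * z * g⁻¹) = conjS g E := by
  ext x
  simp only [Ed, mem_iInf, Set.mem_ofPred_eq]
  refine ⟨fun k => k g rfl, fun hx h e => ?_⟩
  have c : h⁻¹ * g ∈ Cen z := cmc.2 (of_cj (by
    rw [mul_inv_rev, inv_inv, ← mul_assoc, mul_assoc h⁻¹, mul_assoc h⁻¹, ← e]; group))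
  have := (mem_normalizer_iff.1 (hN c) _).1 (mem_conjS.1 hx)
  rw [mem_conjS]
  simpa [mul_assoc] using this

theorem main (hG : ∀ (f : G →* ℤˣ) (g : G), f g = 1) {E K : Subgroup G} {z : G} (h : ES E z)
    (hN : Cen z ≤ normalizer (E : Set G)) (hC : centralizer (E : Set G) ≤ E)
    (big : 32 < Nat.card E) (hK : K.relIndex (Cen z) = 2) :
    ∃ g : G, g * z * g⁻¹ ∈ E ∧ g * z * g⁻¹ ≠ z := by
  by_contra wc
  push Not at wc
  have S : Sy {d | ∃ g, g * z * g⁻¹ = d} (Ed E z) := by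
    refine ⟨?_, ?_, ?_, ?_, ?_, ?_⟩
    · rintro _ ⟨g, rfl⟩; exact Ed_eq hN g ▸ h.conj g
    · rintro _ ⟨g, rfl⟩ k; exact ⟨k * g, by group⟩
    · rintro _ ⟨g, rfl⟩ k
      rw [show k * (g * z * g⁻¹) * k⁻¹ = k * g * z * (k * g)⁻¹ by group, Ed_eq hN, Ed_eq hN]
      ext x; simp only [mem_conjS, mul_inv_rev, mul_assoc]
    · rintro _ ⟨g, rfl⟩ x c
      rw [Ed_eq hN] at c ⊢
      refine mem_conjS.2 (hC fun e he => ?_)
      simpa [mul_assoc] using (cj_cm (g := g⁻¹) (c (g * e * g⁻¹)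
        (mem_conjS.2 (by simpa [mul_assoc] using he)))).eq
    · rintro _ _ ⟨g, rfl⟩ ⟨k, rfl⟩ m
      rw [Ed_eq hN, mem_conjS] at m
      have := wc (g⁻¹ * k) (by simpa [mul_assoc] using m)
      calc k * z * k⁻¹ = g * (g⁻¹ * k * z * (g⁻¹ * k)⁻¹) * g⁻¹ := by group
        _ = _ := by rw [this]
    · rintro _ ⟨g, rfl⟩; rwa [Ed_eq hN, card_conjS]
  obtain ⟨P, g, x, -, zP, PH, gN, g2, na, xP, xE, xK, -⟩ := H8.es_alperin hG h hN hC hK
  have p : Pr {d | ∃ g, g * z * g⁻¹ = d} (Ed E z) (g * z * g⁻¹) z := by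
    refine ⟨S, ⟨g, rfl⟩, ⟨1, by simp⟩, cmc.1 (PH ((mem_normalizer_iff.1 gN z).1 zP)),
      fun e => na fun t ht => ?_, g, ?_, rfl⟩
    · rw [conjS_one, mem_conjS,
        conj_mem_iff_of_relIndex_two hK (cmc.2 (of_cj e.symm)) (PH ht)]
    · exact Eq.trans (by group) (cj_of (cmc.1 (PH g2)))
  refine xK ((closure_le K).2 ?_ (p.pz x (Ed_eq hN g ▸ xE) (cmc.1 (PH xP))))
  rintro _ ⟨y, c, rfl⟩
  exact mul_self_mem_of_index_two hK (⟨y, cmc.2 c⟩ : Cen z)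

end SM
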