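import Cfsg.Agent.H8.Smith2

/-! Commuting pairs of conjugates of a weakly closed involution with a large extraspecial
subgroup: basic facts. -/

set_option autoImplicit false
set_option linter.unusedSectionVars false

namespace SM
open Subgroup H9 H7 H4
open scoped commutatorElement

variable {G : Type*} [Group G] [Finite G]

structure Sy (D : Set G) (E : G → Subgroup G) : Prop where
  es : ∀ {d}, d ∈ D → ES (E d) d
  cD : ∀ {d}, d ∈ D → ∀ g, g * d * g⁻¹ ∈ D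
  cE : ∀ {d}, d ∈ D → ∀ g, E (g * d * g⁻¹) = conjS g (E d)
  cc : ∀ {d}, d ∈ D → ∀ x, (∀ e ∈ E d, Commute e x) → x ∈ E d
  wc : ∀ {d t}, d ∈ D → t ∈ D → t ∈ E d → t = d
  big : ∀ {d}, d ∈ D → 32 < Nat.card (E d)

structure Pr (D : Set G) (E : G → Subgroup G) (z w : G) : Prop extends Sy D E where
  zD : z ∈ D
  wD : w ∈ D
  cm : Commute z w
  ne : w ≠ z
  sy : ∃ g, g * z * g⁻¹ = w ∧ g * w * g⁻¹ = z

def Sq (w : G) : Subgroup G := closure {y | ∃ x, Commute x w ∧ x * x = y}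
theorem sq_mem {w x : G} (h : Commute x w) : x * x ∈ Sq w := subset_closure ⟨x, h, rfl⟩
theorem cm_mem {w a b : G} (ha : Commute a w) (hb : Commute b w) : ⁅a, b⁆ ∈ Sq w := by
  have : ⁅a, b⁆ = a * a * (a⁻¹ * b * (a⁻¹ * b)) * (b⁻¹ * b⁻¹) := by
    rw [commutatorElement_def]; group
  exact this ▸ mul_mem (mul_mem (sq_mem ha) (sq_mem (ha.inv_left.mul_left hb)))
    (sq_mem hb.inv_left)

theorem cnt {B K Y N : Subgroup G} (φ : G → G) (h1 : ∀ b ∈ B, φ b ∈ Y)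
    (h2 : ∀ b ∈ B, ∀ b' ∈ B, (φ b)⁻¹ * φ b' ∈ N → b⁻¹ * b' ∈ K) :
    K.relIndex B ≤ N.relIndex Y := by
  refine Nat.card_le_card_of_injective (fun q : B ⧸ K.subgroupOf B =>
    ((⟨φ q.out, h1 _ q.out.2⟩ : Y) : Y ⧸ N.subgroupOf Y)) fun q q' e => ?_
  rw [← q.out_eq', ← q'.out_eq', QuotientGroup.eq]
  exact h2 _ q.out.2 _ q'.out.2 (mem_subgroupOf.1 (QuotientGroup.eq.1 e))
theorem card_rel (K B : Subgroup G) : Nat.card B = Nat.card (K ⊓ B : Subgroup G) * K.relIndex B := by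
  rw [← inf_relIndex_right, ← relIndex_bot_left (K ⊓ B), relIndex_mul_relIndex _ _ _ bot_le
    inf_le_right, relIndex_bot_left]
theorem cnt0 {B K Y : Subgroup G} (φ : G → G) (h1 : ∀ b ∈ B, φ b ∈ Y)
    (h2 : ∀ b ∈ B, ∀ b' ∈ B, φ b = φ b' → b⁻¹ * b' ∈ K) :
    Nat.card B ≤ Nat.card K * Nat.card Y := by
  rw [card_rel K B, ← relIndex_bot_left Y]
  exact Nat.mul_le_mul (card_le_of_le inf_le_left)
    (cnt φ h1 fun b hb b' hb' e => h2 b hb b' hb' (inv_mul_eq_one.1 (mem_bot.1 e)))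
theorem two_mul_le {Y A : Subgroup G} (h : Y ≤ A) {a : G} (ha : a ∈ A) (hy : a ∉ Y) :
    2 * Nat.card Y ≤ Nat.card A := by
  have := card_rel Y A
  rw [inf_eq_left.2 h] at this
  have h1 : Y.relIndex A ≠ 1 := fun e => hy (relIndex_eq_one.1 e ha)
  have h0 : Y.relIndex A ≠ 0 := index_ne_zero_of_finite
  rw [this, mul_comm]; exact Nat.mul_le_mul_left _ (by omega)

theorem cmc {x y : G} : x ∈ Cen y ↔ Commute x y := mem_centralizer_singleton_iff
theorem cj_of {g x : G} (h : Commute g x) : g * x * g⁻¹ = x := by rw [h.eq, mul_inv_cancel_right]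
theorem of_cj {g x : G} (h : g * x * g⁻¹ = x) : Commute g x := mul_inv_eq_iff_eq_mul.1 h
theorem c1 {a b : G} : ⁅a, b⁆ = 1 ↔ Commute a b := commutatorElement_eq_one_iff_commute
theorem cj_cm {g x y : G} (h : Commute x y) : Commute (g * x * g⁻¹) (g * y * g⁻¹) := by
  simpa using h.map (MulAut.conj g)
theorem cm_mul (w a b : G) : ⁅w, a * b⁆ = ⁅w, a⁆ * (a * ⁅w, b⁆ * a⁻¹) := by
  simp only [commutatorElement_def]; group
theorem mul_cm (a b w : G) : ⁅a * b, w⁆ = (a * ⁅b, w⁆ * a⁻¹) * ⁅a, w⁆ := by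
  simp only [commutatorElement_def]; group

namespace Pr
variable {D : Set G} {E : G → Subgroup G} {z w : G} (p : Pr D E z w)
include p

theorem symm : Pr D E w z :=
  ⟨p.toSy, p.wD, p.zD, p.cm.symm, p.ne.symm, p.sy.imp fun _ h => h.symm⟩
theorem ez : ES (E z) z := p.es p.zD
theorem z2 : z * z = 1 := p.ez.sq_z
theorem zi : z⁻¹ = z := p.ez.inv_z
theorem wi : w⁻¹ = w := p.symm.zi
theorem zE : z ∈ E z := p.ez.mem
theorem cz {e : G} (h : e ∈ E z) : Commute e z := p.ez.cent e h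
theorem wE : w ∉ E z := fun h => p.ne (p.wc p.zD p.wD h)
theorem cjE {d x : G} (hd : d ∈ D) (g : G) : g * x * g⁻¹ ∈ E (g * d * g⁻¹) ↔ x ∈ E d := by
  rw [p.cE hd, mem_conjS]; simp [mul_assoc]
theorem nE {h e : G} (c : Commute h z) (he : e ∈ E z) : h * e * h⁻¹ ∈ E z := by
  have := (p.cjE p.zD h).2 he
  rwa [cj_of c] at this
theorem nN {h : G} (c : Commute h z) : h ∈ normalizer (E z : Set G) := by
  refine mem_normalizer_iff.2 fun e => ⟨p.nE c, fun he => ?_⟩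
  simpa [mul_assoc] using p.nE c.inv_left he
theorem cl {h e : G} (c : Commute h z) (he : e ∈ E z) : ⁅h, e⁆ ∈ E z :=
  mul_mem (p.nE c he) (inv_mem he)
theorem cr {h e : G} (c : Commute h z) (he : e ∈ E z) : ⁅e, h⁆ ∈ E z :=
  commutatorElement_inv h e ▸ inv_mem (p.cl c he)
theorem jE {e : G} (he : e ∈ E z) : ⁅w, e⁆ ∈ E z := p.cl p.cm.symm he
theorem wj (e : G) : e * w * e⁻¹ = w * ⁅w, e⁆ := by
  rw [commutatorElement_def, p.wi, ← mul_assoc, ← mul_assoc, ← mul_assoc, p.symm.z2, one_mul]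
theorem nj {e : G} (h : ⁅w, e⁆ ∈ E w) : ⁅w, e⁆ = 1 := by
  have := p.wc p.wD (p.cD p.wD e) (p.wj e ▸ mul_mem p.symm.zE h)
  rwa [p.wj, mul_eq_left] at this
theorem cq {a b : G} (ha : a ∈ E z) (hb : b ∈ E z) : Commute a b ∨ ⁅a, b⁆ = z :=
  (p.ez.comm ha hb).imp_left c1.1
theorem cj {a b : G} (ha : a ∈ E z) (hb : b ∈ E z) (h : ¬ Commute a b) :
    a * b * a⁻¹ = z * b := p.ez.conj_eq ha hb h
theorem cj2 {a b : G} (ha : a ∈ E z) (hb : b ∈ E z) :
    a * b * a⁻¹ = b ∨ a * b * a⁻¹ = z * b := (em _).imp cj_of (p.cj ha hb)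
/-- two elements not commuting with `x` have a product commuting with `x` -/
theorem cmul {a b x : G} (ha : a ∈ E z) (hb : b ∈ E z) (hx : x ∈ E z) (h : ¬ Commute x a)
    (k : ¬ Commute x b) : Commute x (a * b) := by
  refine of_cj ?_
  rw [← conj_mul, p.cj hx ha h, p.cj hx hb k, mul_assoc, ← mul_assoc a, (p.cz ha).eq,
    ← mul_assoc, ← mul_assoc, p.z2, one_mul]
theorem adj {b r f : G} (c : Commute b z) (hr : r ∈ E z) (hf : f ∈ E z) :
    Commute ⁅b, r⁆ f ↔ Commute r ⁅b⁻¹, f⁆ := by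
  rw [← c1, ← c1, p.ez.adj (p.nN c) c hr hf]
theorem β {r f : G} (hr : r ∈ E z) (hf : f ∈ E z) : Commute ⁅w, r⁆ f ↔ Commute r ⁅w, f⁆ := by
  rw [p.adj p.cm.symm hr hf, p.wi]
theorem Ic {i a : G} (h : i ∈ E z) (h' : i ∈ E w) (ha : a ∈ E z) (c : Commute a w) :
    Commute i a := (p.cq h ha).resolve_right fun e => p.symm.wE (e ▸ p.symm.cr c h')
theorem Isq {i : G} (h : i ∈ E z) (h' : i ∈ E w) : i * i = 1 :=
  (p.ez.sq i h).resolve_right fun e => p.symm.wE (e ▸ mul_mem h' h')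
theorem ctr {x : G} (h : x ∈ E z) (c : ∀ e ∈ E z, Commute e x) : x = 1 ∨ x = z :=
  p.ez.center x h c
theorem zSq : z ∈ Sq z := by
  by_contra h
  have c : ∀ x ∈ E z, x = 1 ∨ x = z := fun x hx => p.ctr hx fun e he =>
    (p.cq he hx).resolve_right fun k => h (by
      have := cm_mem (p.cz he) (p.cz hx)
      rwa [k] at this)
  have := card_le_of_le (show E z ≤ zpowers z from fun x hx => p.ez.mem_zpowers_iff.2 (c x hx))
  have := p.ez.card_zpowers
  have := p.big p.zD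
  omega
theorem ew {e : G} (he : e ∈ E z) : e⁻¹ * w * e = e * w * e⁻¹ := by
  have c : Commute (e * e) w := by
    rcases p.ez.sq e he with h | h <;> rw [h]
    exacts [Commute.one_left _, p.cm]
  calc e⁻¹ * w * e = e⁻¹ * (e * e * w * (e * e)⁻¹) * e := by rw [cj_of c]
    _ = _ := by group
theorem jinv (e : G) : w * ⁅w, e⁆ * w⁻¹ = ⁅w, e⁆⁻¹ := conj_commutator_of_sq p.symm.z2
theorem jA {e : G} (h : ⁅w, e⁆ * ⁅w, e⁆ = 1) : Commute ⁅w, e⁆ w :=
  (of_cj ((p.jinv e).trans (inv_eq_of_mul_eq_one_right h))).symm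
theorem jj (e : G) : ⁅w, ⁅w, e⁆⁆ = (⁅w, e⁆ * ⁅w, e⁆)⁻¹ := by
  rw [commutatorElement_def w ⁅w, e⁆, p.jinv, mul_inv_rev]
theorem je {e : G} (he : e ∈ E z) : e * ⁅w, e⁆ * e⁻¹ = ⁅w, e⁆⁻¹ := by
  have : ⁅w, e * e⁆ = 1 := by
    rcases p.ez.sq e he with h | h <;> rw [h]
    exacts [commutatorElement_one_right _, c1.2 p.cm.symm]
  rw [cm_mul] at this
  exact eq_inv_of_mul_eq_one_right this
theorem ψA {e b : G} (he : e ∈ E z) (c : Commute b w) (k : Commute b ⁅w, e⁆) :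
    Commute ⁅e, b⁆ w := by
  have := cj_cm (g := e) (p.wj e ▸ c.mul_right k : Commute b (e * w * e⁻¹))
  rw [← p.ew he] at this
  exact Commute.mul_left (by simpa [mul_assoc] using this) c.inv_left
theorem pr {e : G} (he : e ∈ E z) (c : Commute ⁅w, e⁆ w) (n : ¬ Commute e w) :
    Pr D E (e * w * e⁻¹) w :=
  ⟨p.toSy, p.cD p.wD e, p.wD, p.wj e ▸ (Commute.refl w).mul_left c, fun h => n (of_cj h.symm),
    e, by rw [← p.ew he]; group, rfl⟩
theorem AB : Nat.card (E z ⊓ Cen w : Subgroup G) = Nat.card (E w ⊓ Cen z : Subgroup G) := by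
  obtain ⟨g, a, b⟩ := p.sy
  rw [← card_conjS g]
  congr 2
  ext x
  obtain ⟨x, rfl⟩ := (MulAut.conj g).surjective x
  rw [mem_conjS, MulAut.conj_apply, ← a, mem_inf, mem_inf, p.cjE p.zD, a, ← b, cmc, cmc]
  simp only [mul_assoc, inv_mul_cancel, mul_one, inv_mul_cancel_left]
  refine and_congr_right fun _ => ⟨fun h => by simpa only [mul_assoc] using cj_cm h, fun h => ?_⟩
  simpa [mul_assoc] using cj_cm (g := g⁻¹) h
theorem II {g : G} : Nat.card (E (g * z * g⁻¹) ⊓ E (g * w * g⁻¹) : Subgroup G) =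
    Nat.card (E z ⊓ E w : Subgroup G) := by
  rw [p.cE p.zD, p.cE p.wD, ← card_conjS g (E z ⊓ E w)]
  congr 2
  ext x; simp only [mem_inf, mem_conjS]

/-- the preimage of `C_Ē(w)` -/
def C : Subgroup G where
  carrier := {e | e ∈ E z ∧ (⁅w, e⁆ = 1 ∨ ⁅w, e⁆ = z)}
  one_mem' := ⟨one_mem _, Or.inl (commutatorElement_one_right _)⟩
  mul_mem' := by
    rintro a b ⟨ha, h⟩ ⟨hb, k⟩
    refine ⟨mul_mem ha hb, ?_⟩
    rw [cm_mul]
    rcases h with h | h <;> rcases k with k | k <;> simp [h, k, cj_of (p.cz ha), p.z2]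
  inv_mem' := by
    rintro a ⟨ha, h⟩
    refine ⟨inv_mem ha, ?_⟩
    have : ⁅w, a⁻¹⁆ = a⁻¹ * ⁅w, a⁆⁻¹ * a⁻¹⁻¹ := by simp only [commutatorElement_def]; group
    rcases h with h | h <;> rw [this, h]
    · simp
    · rw [p.zi, cj_of (p.cz (inv_mem ha))]; exact Or.inr rfl
theorem jC {e c : G} (he : e ∈ E z) (hc : c ∈ p.C) : Commute ⁅w, e⁆ c := by
  rw [p.β he hc.1]
  rcases hc.2 with h | h <;> rw [h]
  exacts [Commute.one_right _, p.cz he]
theorem jmC {e : G} (he : e ∈ E z) : ⁅w, e⁆ ∈ p.C := by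
  refine ⟨p.jE he, ?_⟩
  rcases p.ez.sq _ (p.jE he) with h | h <;> rw [p.jj, h]
  exacts [Or.inl inv_one, Or.inr p.zi]
theorem mC {y : G} (hy : y ∈ E z) (h : ∀ e ∈ E z, Commute ⁅w, e⁆ y) : y ∈ p.C :=
  ⟨hy, p.ctr (p.jE hy) fun e he => (p.β he hy).1 (h e he)⟩
theorem jmul {a b : G} (ha : a ∈ E z) (hb : b ∈ E z) :
    ⁅w, a * b⁆ = ⁅w, a⁆ * ⁅w, b⁆ ∨ ⁅w, a * b⁆ = z * (⁅w, a⁆ * ⁅w, b⁆) := by
  rw [cm_mul]
  refine (p.cj2 ha (p.jE hb)).imp (fun h => by rw [h]) fun h => ?_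
  rw [h, ← mul_assoc, (p.cz (p.jE ha)).eq, mul_assoc]
def J : Subgroup G where
  carrier := {x | ∃ e ∈ E z, x = ⁅w, e⁆ ∨ x = z * ⁅w, e⁆}
  one_mem' := ⟨1, one_mem _, Or.inl (commutatorElement_one_right _).symm⟩
  mul_mem' := by
    rintro _ _ ⟨a, ha, h⟩ ⟨b, hb, k⟩
    refine ⟨a * b, mul_mem ha hb, ?_⟩
    have c := (p.cz (p.jE ha)).eq
    have zz : ∀ x, z * (z * x) = x := fun x => by rw [← mul_assoc, p.z2, one_mul]
    have c' : ∀ x, ⁅w, a⁆ * (z * x) = z * (⁅w, a⁆ * x) := fun x => by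
      rw [← mul_assoc, c, mul_assoc]
    rcases h with rfl | rfl <;> rcases k with rfl | rfl <;> rcases p.jmul ha hb with e | e <;>
      simp [e, mul_assoc, zz, c']
  inv_mem' := by
    rintro _ ⟨a, ha, h⟩
    refine ⟨a, ha, ?_⟩
    have c := (p.cz (p.jE ha)).eq
    have zz : ∀ x, z * (z * x) = x := fun x => by rw [← mul_assoc, p.z2, one_mul]
    have := p.cj2 ha (p.jE ha)
    rw [p.je ha] at this
    rcases h with rfl | rfl <;> rcases this with e | e <;>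
      simp [e, mul_assoc, zz, p.zi, c]
theorem mJ {x : G} (hx : x ∈ E z) (h : ∀ c ∈ p.C, Commute x c) : x ∈ p.J := by
  by_contra n
  obtain ⟨y, hy, a, b⟩ := p.ez.exists_not_commute (M := p.J)
    ⟨1, one_mem _, Or.inr (by simp)⟩ hx n
  exact b (h y (p.mC hy fun e he => a _ ⟨e, he, Or.inl rfl⟩ (p.jE he))).symm
theorem nC (h : ∀ e ∈ E z, e ∈ p.C) : False := by
  by_cases k : ∀ e ∈ E z, Commute e w
  · exact p.wE (p.cc p.zD w k)
  push Not at k
  obtain ⟨y, hy, n⟩ := k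
  obtain ⟨x, hx, a, b⟩ := p.ez.exists_not_commute (M := Cen w) (cmc.2 p.cm) hy (mt cmc.1 n)
  have : x * w ∈ E z := p.cc p.zD _ fun e he => by
    by_cases c : Commute e w
    · exact Commute.mul_right (a e (cmc.2 c) he) c
    have k : ∀ e ∈ E z, ¬ Commute e w → w * e * w⁻¹ = z * e := fun e he c =>
      mul_inv_eq_iff_eq_mul.1 ((h e he).2.resolve_left fun k => c (c1.1 k).symm)
    have c' : ¬ Commute x e := fun c' => b <| by
      have : Commute (e * y) w := (of_cj (by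
        rw [← conj_mul, k e he c, k y hy n, mul_assoc, ← mul_assoc e, (p.cz he).eq,
          ← mul_assoc, ← mul_assoc, p.z2, one_mul])).symm
      have := Commute.mul_left c'.symm.inv_left (a _ (cmc.2 this) (mul_mem he hy))
      rw [inv_mul_cancel_left] at this
      exact this.symm
    refine (of_cj ?_).symm
    rw [mul_inv_rev, ← mul_assoc, mul_assoc x w, mul_assoc x, k e he c, ← conj_mul,
      cj_of (p.cz hx), p.cj hx he c', ← mul_assoc, p.z2, one_mul]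
  exact p.wE ((mul_mem_cancel_left hx).1 this)

end Pr
end SM
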