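import Cfsg.Agent.SM.A1

/-! The counting lemma and the case where `w` is not conjugate to `w z` in `E z`. -/

set_option autoImplicit false
set_option linter.unusedSectionVars false

namespace SM
open Subgroup H9 H7 H4
open scoped commutatorElement

variable {G : Type*} [Group G] [Finite G]

def C2 (E : G → Subgroup G) (z w : G) : Prop := ∃ e ∈ E z, ⁅w, e⁆ = z
def El (E : G → Subgroup G) (z w : G) : Prop := ∀ a ∈ E z, Commute a w → a * a = 1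
def Al (E : G → Subgroup G) (z w : G) : Prop := ∀ e ∈ E z, ⁅w, e⁆ * ⁅w, e⁆ = 1
def Pz (E : G → Subgroup G) (z w : G) : Prop := ∀ a ∈ E z, Commute a w → a ∈ Sq w

theorem le2 {H : Subgroup G} {i : G} (h : ∀ x ∈ H, x = 1 ∨ x = i) : Nat.card H ≤ 2 :=
  (Set.ncard_le_ncard (s := (H : Set G)) (t := {1, i}) h).trans
    ((Set.ncard_insert_le _ _).trans (by rw [Set.ncard_singleton]))
theorem ge2 {H : Subgroup G} {i : G} (h : i ∈ H) (n : i ≠ 1) : 2 ≤ Nat.card H := by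
  simpa using two_mul_le bot_le h (mt mem_bot.1 n)

namespace Pr
variable {D : Set G} {E : G → Subgroup G} {z w : G} (p : Pr D E z w)
include p

theorem tr : ∃ σ : G ≃* G, σ z = w ∧ σ w = z ∧ ∀ x, σ x ∈ E w ↔ x ∈ E z := by
  obtain ⟨g, a, b⟩ := p.sy
  exact ⟨MulAut.conj g, a, b, fun x => a ▸ p.cjE p.zD g⟩
theorem c2s (h : C2 E z w) : C2 E w z := by
  obtain ⟨σ, a, b, c⟩ := p.tr
  obtain ⟨e, he, k⟩ := h
  exact ⟨σ e, (c e).2 he, by rw [← b, ← map_commutatorElement, k, a]⟩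
theorem als (h : Al E z w) : Al E w z := fun e he => by
  obtain ⟨σ, a, b, c⟩ := p.tr
  obtain ⟨e, rfl⟩ := σ.surjective e
  rw [← b, ← map_commutatorElement, ← map_mul, h e ((c e).1 he), map_one]
theorem ab (el : El E z w) {a b : G} (ha : a ∈ E z) (ca : Commute a w) (hb : b ∈ E z)
    (cb : Commute b w) : Commute a b := by
  have := el _ (mul_mem ha hb) (ca.mul_left cb)
  rw [Commute, SemiconjBy, ← inv_eq_of_mul_eq_one_right this, mul_inv_rev,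
    inv_eq_of_mul_eq_one_right (el a ha ca), inv_eq_of_mul_eq_one_right (el b hb cb)]
theorem ψe {e b : G} (he : e ∈ E z) (c : Commute b z) (h : ⁅e, b⁆ * ⁅e, b⁆ = 1) :
    Commute ⁅e, b⁆ e := by
  have c2 : Commute b (e * e) := by
    rcases p.ez.sq e he with h | h <;> rw [h]
    exacts [Commute.one_right _, c]
  have k : ⁅e, b⁆⁻¹ * e * ⁅e, b⁆⁻¹ * e = b * (e * e) * b⁻¹ := by
    simp only [commutatorElement_def]; group
  rw [cj_of c2, mul_left_inj] at k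
  refine of_cj ?_
  nth_rw 1 [inv_eq_of_mul_eq_one_right h] at k
  exact k
theorem Kmem {e b b' : G} (he : e ∈ E z) (hb : b ∈ E w) (hb' : b' ∈ E w)
    (h : ⁅e, b⁆⁻¹ * ⁅e, b'⁆ ∈ E w) : b⁻¹ * b' ∈ E (e * w * e⁻¹) ⊓ E w := by
  refine mem_inf.2 ⟨?_, mul_mem (inv_mem hb) hb'⟩
  have k : ⁅e, b⁆⁻¹ * ⁅e, b'⁆ = b * (e * (b⁻¹ * b') * e⁻¹) * b'⁻¹ := by
    simp only [commutatorElement_def]; group
  rw [k, mul_mem_cancel_right (inv_mem hb'), mul_mem_cancel_left hb] at h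
  have := (p.cjE p.wD e⁻¹).2 h
  rw [inv_inv, p.ew he] at this
  simpa [mul_assoc] using this
theorem cnt2 (el : El E z w) {e a : G} (he : e ∈ E z)
    (hb : ∀ b ∈ E w, Commute b z → Commute b ⁅w, e⁆) (hI : ∀ i ∈ E z, i ∈ E w → Commute i e)
    (ha : a ∈ E z) (ca : Commute a w) (n : ¬ Commute a e) :
    2 * Nat.card (E z ⊓ E w : Subgroup G) ≤ Nat.card (E (e * w * e⁻¹) ⊓ E w : Subgroup G) := by
  have h := cnt (B := E w ⊓ Cen z) (K := E (e * w * e⁻¹) ⊓ E w) (Y := E z ⊓ Cen w ⊓ Cen e)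
    (N := E z ⊓ E w) (fun b => ⁅e, b⁆) (fun b hb' => by
      have c := cmc.1 hb'.2
      have k := p.ψA he (p.symm.cz hb'.1) (hb b hb'.1 c)
      exact ⟨⟨p.cr c he, cmc.2 k⟩, cmc.2 (p.ψe he c (el _ (p.cr c he) k))⟩)
    fun b h b' h' k => p.Kmem he h.1 h'.1 k.2
  have h1 := card_rel (E (e * w * e⁻¹) ⊓ E w) (E w ⊓ Cen z)
  have h2 := card_rel (E z ⊓ E w) (E z ⊓ Cen w ⊓ Cen e)
  rw [inf_eq_left.2 (show E z ⊓ E w ≤ E z ⊓ Cen w ⊓ Cen e from fun i hi =>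
    ⟨⟨hi.1, cmc.2 (p.symm.cz hi.2)⟩, cmc.2 (hI i hi.1 hi.2)⟩)] at h2
  have h3 := two_mul_le (Y := E z ⊓ Cen w ⊓ Cen e) inf_le_left (a := a) ⟨ha, cmc.2 ca⟩
    fun k => n (cmc.1 k.2)
  have h4 := Nat.mul_le_mul (card_le_of_le
    (inf_le_left : (E (e * w * e⁻¹) ⊓ E w) ⊓ (E w ⊓ Cen z) ≤ _)) h
  rw [← h1, ← p.AB] at h4
  rw [h2, ← mul_assoc] at h3
  exact Nat.le_of_mul_le_mul_right (h3.trans h4) (Nat.pos_of_ne_zero index_ne_zero_of_finite)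

/-! ### Case II -/

theorem IJ {e0 i : G} (_h0 : e0 ∈ E z) (k0 : ⁅w, e0⁆ = z) (h' : i ∈ E w) (j : i ∈ p.J) : i = 1 := by
  obtain ⟨e, he, rfl | rfl⟩ := j
  · exact p.nj h'
  · have : ⁅w, e * e0⁆ = z * ⁅w, e⁆ := by rw [cm_mul, k0, cj_of (p.cz he), (p.cz (p.jE he)).eq]
    rw [← this] at h' ⊢
    exact p.nj h'
theorem Ce0 {e0 c : G} (k0 : ⁅w, e0⁆ = z) (hc : c ∈ p.C) : Commute c w ∨ Commute (c * e0) w :=
  hc.2.imp (fun h => (c1.1 h).symm) fun h =>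
    (c1.1 (by rw [cm_mul, h, k0, cj_of (p.cz hc.1), p.z2])).symm
theorem mJ0 {e0 x : G} (h0 : e0 ∈ E z) (k0 : ⁅w, e0⁆ = z) (hx : x ∈ E z)
    (h : ∀ a ∈ E z, Commute a w → Commute x a) (c : Commute x e0) : x ∈ p.J :=
  p.mJ hx fun a ha => (p.Ce0 k0 ha).elim (h a ha.1) fun k => by
    simpa using (h _ (mul_mem ha.1 h0) k).mul_right c.inv_right
theorem I0 {e0 i : G} (h0 : e0 ∈ E z) (k0 : ⁅w, e0⁆ = z) (h : i ∈ E z) (h' : i ∈ E w)
    (c : Commute i e0) : i = 1 :=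
  p.IJ h0 k0 h' (p.mJ0 h0 k0 h (fun _ ha k => p.Ic h h' ha k) c)
theorem le_II (h : C2 E z w) : Nat.card (E z ⊓ E w : Subgroup G) ≤ 2 := by
  obtain ⟨e0, h0, k0⟩ := h
  have := p.ez.card_le_two_mul h0 (A := E z ⊓ E w) inf_le_left
  rwa [(eq_bot_iff_forall (E z ⊓ E w ⊓ centralizer {e0})).2 fun i hi =>
    p.I0 h0 k0 hi.1.1 hi.1.2 (cmc.1 hi.2), card_bot] at this

/-! ### Case I -/

theorem CA (h : ¬ C2 E z w) {c : G} (hc : c ∈ p.C) : Commute c w :=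
  (c1.1 (hc.2.resolve_right fun k => h ⟨c, hc.1, k⟩)).symm
theorem al1 (h : ¬ C2 E z w) : Al E z w := fun e he => by
  have := c1.2 (p.CA h (p.jmC he)).symm
  rwa [p.jj, inv_eq_one] at this
theorem I1 (h : ¬ C2 E z w) {i : G} (hi : i ∈ E z) (hi' : i ∈ E w) (n : i ≠ 1) :
    ∃ e ∈ E z, ⁅w, e⁆ = z * i ∧ Commute e i := by
  obtain ⟨e, he, rfl | k⟩ := p.mJ hi fun c hc => p.Ic hi hi' hc.1 (p.CA h hc)
  · exact absurd (p.nj hi') n
  refine ⟨e, he, by rw [k, ← mul_assoc, p.z2, one_mul], k ▸ (p.cz he).mul_right (of_cj ?_)⟩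
  rw [p.je he, inv_eq_of_mul_eq_one_right (p.al1 h e he)]
theorem I2 (h : ¬ C2 E z w) {e i i' : G} (he : e ∈ E z) (k : ⁅w, e⁆ = z * i) (hi : i ∈ E z)
    (hj : i ∈ E w) (hi' : i' ∈ E z) (hj' : i' ∈ E w) (c : Commute e i') : i' = 1 ∨ i' = i := by
  refine or_iff_not_imp_left.2 fun n => ?_
  obtain ⟨e', -, k', -⟩ := p.I1 h hi' hj' n
  have : ⁅w, e * e'⁆ = i * i' := by
    rw [cm_mul, k, k', cj_of ((p.cz he).mul_right c), mul_assoc, ← mul_assoc i, (p.cz hi).eq,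
      ← mul_assoc, ← mul_assoc, p.z2, one_mul]
  have := this.symm.trans (p.nj (this ▸ mul_mem hj hj'))
  rw [← inv_eq_of_mul_eq_one_right this, inv_eq_of_mul_eq_one_right (p.Isq hi hj)]
theorem le4 : Nat.card (E z ⊓ E w : Subgroup G) ≤ 4 := by
  by_cases h : C2 E z w
  · exact (p.le_II h).trans (by norm_num)
  by_cases k : ∀ i ∈ E z ⊓ E w, i = 1
  · rw [(eq_bot_iff_forall _).2 k, card_bot]; norm_num
  push Not at k
  obtain ⟨i, hi, n⟩ := k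
  obtain ⟨e, he, k, -⟩ := p.I1 h hi.1 hi.2 n
  have := p.ez.card_le_two_mul he (A := E z ⊓ E w) inf_le_left
  have := le2 (H := E z ⊓ E w ⊓ centralizer {e}) fun x hx =>
    p.I2 h he k hi.1 hi.2 hx.1.1 hx.1.2 (cmc.1 hx.2).symm
  omega

theorem sqz {a f : G} (ha : a ∈ E z) (ca : Commute a w) (a2 : a * a = z) (hf : f ∈ E w)
    (h : ∀ i ∈ E z, i ∈ E w → Commute f i) : (∀ b ∈ E w, Commute b z → Commute ⁅a, f⁆ b) ∧
      ⁅z, f⁆ = ⁅a, ⁅a, f⁆⁆ * (⁅a, f⁆ * ⁅a, f⁆) := by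
  refine ⟨fun b hb c => (p.symm.adj ca hf hb).2
    (h _ (p.cr c (inv_mem ha)) (p.symm.cl ca.inv_left hb)), ?_⟩
  rw [← a2]; simp only [commutatorElement_def]; group
theorem Jsq (al : Al E z w) {y : G} (h : y ∈ p.J) : y * y = 1 ∧ Commute y w := by
  obtain ⟨e, he, rfl | rfl⟩ := h
  · exact ⟨al e he, p.jA (al e he)⟩
  · refine ⟨?_, p.cm.mul_left (p.jA (al e he))⟩
    rw [mul_assoc, ← mul_assoc _ z, (p.cz (p.jE he)).eq, mul_assoc, al e he, mul_one, p.z2]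
theorem ISq (h : ¬ C2 E z w) {i : G} (hi : i ∈ E z) (hj : i ∈ E w) : i ∈ Sq w := by
  by_cases n : i = 1
  · exact n ▸ one_mem _
  obtain ⟨f, hf, k, -⟩ := p.symm.I1 (mt p.symm.c2s h) hj hi n
  exact (mul_mem_cancel_left p.symm.zSq).1 (k ▸ cm_mem p.cm (p.symm.cz hf))
theorem sw (h : ¬ C2 E z w) (hz : z ∈ Sq w) {e i : G} (he : e ∈ E z) (k : ⁅w, e⁆ = z * i)
    (hi : i ∈ E z) (hj : i ∈ E w) (n : i ≠ 1) : ∃ s, s * z * s⁻¹ = w ∧ s * w * s⁻¹ = z ∧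
      ∀ b ∈ E w, Commute b z → ⁅e, b⁆⁻¹ * (s * b * s⁻¹) ∈ Sq w := by
  obtain ⟨f, hf, l, c⟩ := p.symm.I1 (mt p.symm.c2s h) hj hi n
  have i2 := p.Isq hi hj
  have ce : Commute e i := by
    have := p.je he
    rw [inv_eq_of_mul_eq_one_right (p.al1 h e he), k] at this
    simpa [← mul_assoc, p.z2] using (p.cz he).mul_right (of_cj this)
  have fw := cj_of (p.symm.cz hf)
  have e1 : e * w * e⁻¹ = w * (z * i) := by rw [p.wj, k]
  have f1 : f * z * f⁻¹ = w * (z * i) := by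
    rw [p.symm.wj, l, ← mul_assoc, p.cm.eq, mul_assoc]
  have s2 : f * e * f⁻¹ * w * (f * e * f⁻¹)⁻¹ = z := by
    nth_rw 1 [← fw]
    have : f * e * f⁻¹ * (f * w * f⁻¹) * (f * e * f⁻¹)⁻¹ = f * (e * w * e⁻¹) * f⁻¹ := by group
    rw [this, e1, ← f1, ← p.symm.ew hf]; group
  have s1 : f * e * f⁻¹ * z * (f * e * f⁻¹)⁻¹ = w := by
    have : f * e * f⁻¹ * z * (f * e * f⁻¹)⁻¹ = f * (e * (f⁻¹ * z * f) * e⁻¹) * f⁻¹ := by group
    rw [this, p.symm.ew hf, f1, ← e1, ← p.ew he]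
    simp only [mul_assoc, mul_inv_cancel_left, mul_inv_cancel, mul_one]
    rw [← mul_assoc, fw]
  refine ⟨f * e * f⁻¹, s1, s2, fun b hb cb => ?_⟩
  have key : ∀ b' ∈ E w, Commute b' z → f * b' * f⁻¹ = b →
      ⁅e, b'⁆⁻¹ * (f * e * f⁻¹ * b * (f * e * f⁻¹)⁻¹) ∈ Sq w := fun b' hb' c' r => by
    have cw := p.ψA he (p.symm.cz hb') (k ▸ c'.mul_right (p.symm.Ic hj hi hb' c').symm)
    refine p.ISq h (mul_mem (inv_mem (p.cr c' he)) (s2 ▸ (p.cjE p.wD _).2 hb)) ?_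
    have : ⁅e, b'⁆⁻¹ * (f * e * f⁻¹ * b * (f * e * f⁻¹)⁻¹) =
        ⁅e, b'⁆⁻¹ * f * ⁅e, b'⁆⁻¹⁻¹ * b' * f⁻¹ := by
      rw [← r]; simp only [commutatorElement_def]; group
    exact this ▸ mul_mem (mul_mem (p.symm.nE cw.inv_left hf) hb') (inv_mem hf)
  rcases p.symm.cj2 hf hb with r | r
  · exact key b hb cb r
  · have := key (b * w) (mul_mem hb p.symm.zE) (cb.mul_left p.cm.symm) (by
      rw [← conj_mul, r, fw, ← (p.symm.cz hb).eq, mul_assoc, p.symm.z2, mul_one])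
    rw [cm_mul, ← commutatorElement_inv w e, k,
      cj_of (cb.mul_right (p.symm.Ic hj hi hb cb).symm).inv_right, mul_inv_rev, inv_inv,
      mul_assoc] at this
    exact (mul_mem_cancel_left (mul_mem hz (p.ISq h hi hj))).1 this

end Pr
end SM
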